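import Cfsg.Agent.Lib.Big.ZD
import Cfsg.Agent.Lib.Bender.Main
import Cfsg.Agent.Lib.Connect.Basic
import Cfsg.Agent.Lib.FT.GW.A7Cfg

/-!
# The five conjugates of a four-group
-/

set_option autoImplicit false

namespace Cfsg.Lib.D6
open Equiv Subgroup Cfsg.Lib.FT Cfsg.Lib.GW

variable {H : Type*} [Group H] [Finite H] {t p x : H}

theorem four_conj_t (hf : Four t p) (xt : x * t * x⁻¹ = t * p) (xp : x * p * x⁻¹ = t) {v : H} (hv : v ∈ four t p)
    (h1 : v ≠ 1) : ∃ k ∈ zpowers x, k * t * k⁻¹ = v := by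
  rcases hf.mem_four.1 hv with rfl | rfl | rfl | rfl
  exacts [absurd rfl h1, ⟨1, one_mem _, by simp⟩, ⟨x⁻¹, by simp, by rw [← xp]; group⟩, ⟨x, mem_zpowers x, xt⟩]

theorem five (hf : Four t p) (xt : x * t * x⁻¹ = t * p) (xp : x * p * x⁻¹ = t)
    (hC : ∀ d, IsConj t d → Commute t d → d ∈ four t p) (hO : oddCore (closure {d | IsConj t d}) = ⊥)
    (hS : (∀ u ∈ closure {d | IsConj t d}, orderOf u = 2 → IsConj t u) →
      IsSylowIn 2 (four t p) (closure {d | IsConj t d})) (hM : N[four t p] ≠ ⊤) :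
    ∃ π : H →* Perm (Fin 5), π t = swap 0 1 * swap 2 3 ∧ π p = swap 0 2 * swap 1 3 ∧
      (∀ h, π h 4 = 4 ↔ h ∈ N[four t p]) ∧ (∀ k ∈ closure {d | IsConj t d}, π k = 1 → k = 1) ∧
      ∃ d, IsConj t d ∧ π d 4 ≠ 4 := by
  set M := N[four t p]
  set K := closure {d | IsConj t d}
  have tV := left_mem_four t p
  have pV := right_mem_four t p
  have hx : zpowers x ≤ M := zpowers_le.2 (Four.mem_normalizer (xt ▸ mul_mem tV pV) (xp.symm ▸ tV))
  have cj : ∀ {d} g, IsConj t d → IsConj t (g * d * g⁻¹) := fun g h => h.trans (isConj_iff.2 ⟨g, rfl⟩)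
  have hD : ∀ d, IsConj t d → orderOf d = 2 := fun d h => by
    obtain ⟨g, rfl⟩ := isConj_iff.1 h
    exact ((MulAut.conj g).orderOf_eq t).trans hf.ht
  have h1 : ∀ v ∈ four t p, v ≠ 1 → IsConj t v := fun v hv h =>
    let ⟨k, _, e⟩ := four_conj_t hf xt xp hv h; isConj_iff.2 ⟨k, e⟩
  have h2 : ∀ d, IsConj t d → d ∈ M → d ∈ four t p := fun d hd hm => by
    have d2 := BSW.mul_self_of_orderOf_two (hD d hd)
    have c := conj_mem_of_mem_normalizer hm tV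
    by_cases e : d * t * d⁻¹ = t
    · exact hC d hd (mul_inv_eq_iff_eq_mul.1 e).symm
    obtain ⟨k, hk, e1⟩ := four_conj_t hf xt xp (mul_mem tV c) fun h => e
      ((inv_eq_of_mul_eq_one_right h).symm.trans hf.t_inv)
    have h3 : Commute (t * (d * t * d⁻¹)) d := by
      have := mem_centralizer_iff.1 (hf.le_centralizer c) t tV
      rw [commute_iff_eq]
      nth_rewrite 2 [this]
      rw [inv_eq_of_mul_eq_one_right d2]
      simp only [← mul_assoc, mul_assoc _ d d, d2, mul_one, one_mul]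
    have := hC (k⁻¹ * d * k⁻¹⁻¹) (cj _ hd) (by
      rw [← e1, commute_iff_eq] at h3
      rw [commute_iff_eq]
      calc _ = k⁻¹ * (k * t * k⁻¹ * d) * k := by group
        _ = _ := by rw [h3]; group)
    simpa [mul_assoc] using conj_mem_of_mem_normalizer (hx hk) this
  have hfix : ∀ d, IsConj t d → d ∈ M → ∀ g, g * d * g⁻¹ ∈ M → g ∈ M := fun d hd hm g hg => by
    obtain ⟨k, hk, rfl⟩ := four_conj_t hf xt xp (h2 d hd hm) (BSW.ne_one_of_orderOf_two (hD d hd))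
    obtain ⟨l, hl, e⟩ := four_conj_t hf xt xp (h2 _ (cj g hd) hg) (BSW.ne_one_of_orderOf_two (hD _ (cj g hd)))
    have e1 : l⁻¹ * g * k * t * (l⁻¹ * g * k)⁻¹ = t := by
      calc _ = l⁻¹ * (g * (k * t * k⁻¹) * g⁻¹) * l := by group
        _ = _ := by rw [← e]; group
    have := Four.mem_normalizer (by rwa [e1]) (hC _ (cj _ (h1 p pV hf.v_ne)) (by
      nth_rewrite 1 [← e1]; rw [commute_iff_eq, conj_mul, conj_mul, hf.comm]))
    rwa [mul_mem_cancel_right (hx hk), mul_mem_cancel_left (inv_mem (hx hl))] at this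
  have hVM : four t p ≤ M := le_normalizer
  have hprod : ∀ a, IsConj t a → ∀ b, IsConj t b → a ∈ M → b ∈ M → a ≠ b → Commute a b → IsConj t (a * b) :=
    fun a ha b hb h3 h4 h5 _ => h1 _ (mul_mem (h2 a ha h3) (h2 b hb h4)) fun e => h5 (by
      rw [← BSW.inv_eq_of_orderOf_two (hD b hb)]; exact eq_inv_of_mul_eq_one_left e)
  have hp := Big.zd_pure hM hD (fun d hd g => cj g hd) ⟨t, IsConj.refl _, hVM tV⟩ hfix hprod
  have hS' := hS hp
  obtain ⟨S, e1, e2, -⟩ := Bender.bender_local_aux hO (not_pRankLE_subgroup_iff.2 ⟨_, hS'.le,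
    ⟨hf.isMulCommutative, fun a ha => by rw [sq, hf.mul_self ha]⟩, hf.card.ge⟩)
    (Big.zd hM hD (fun d hd g => cj g hd) ⟨t, IsConj.refl _, hVM tV⟩ hfix hprod)
  have h3 : ∀ s ∈ (S : Subgroup K), s.1 ∈ four t p := fun s hs =>
    hS'.le_of_normalizes (S.isPGroup'.map K.subtype) (map_subtype_le _) (fun v hv => by
      have : (⟨v, hS'.le hv⟩ : K) ∈ normalizer ((S : Subgroup K) : Set K) := e1.le ⟨hVM hv, hS'.le hv⟩
      exact le_normalizer_map _ ⟨_, this, rfl⟩) ⟨s, hs, rfl⟩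
  obtain ⟨d, hd, hdM⟩ : ∃ d, IsConj t d ∧ d ∉ M := by
    by_contra! h
    exact hM (eq_top_iff.2 fun g _ => hfix t (.refl _) (hVM tV) g (h _ (cj g (.refl _))))
  have h4 : ∀ v ∈ four t p, d⁻¹ * v * d ∈ M → v = 1 := fun v hv h => by_contra fun hv1 =>
    hdM (inv_mem_iff.1 (hfix v (h1 v hv hv1) (hVM hv) _ (by rwa [inv_inv])))
  have h5 : ∀ a ∈ four t p, ∀ b ∈ four t p, ((a * d : H) : H ⧸ M) = (b * d : H) ↔ a = b := fun a ha b hb =>
    ⟨fun e => inv_mul_eq_one.1 (h4 _ (mul_mem (inv_mem ha) hb) (by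
      simpa [mul_assoc] using QuotientGroup.eq.1 e)), fun e => e ▸ rfl⟩
  have h6 : ∀ a ∈ four t p, ((a * d : H) : H ⧸ M) ≠ (1 : H) := fun a ha e => hdM (by
    simpa [mul_mem_cancel_left (hVM ha)] using QuotientGroup.eq.1 e.symm)
  let u : Fin 4 → H := ![1, t, p, t * p]
  have hu : ∀ i, u i ∈ four t p := by simp [u, Fin.forall_fin_succ, tV, pV, mul_mem]
  have hu' : Function.Injective u := by
    have := hf.t_ne; have := hf.v_ne; have := hf.w_ne; have := hf.ne; have := hf.w_ne_t; have := hf.w_ne_v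
    intro i j; fin_cases i <;> fin_cases j <;> simp [u, *, Ne.symm]
  let f : Fin 5 → H ⧸ M := Fin.lastCases (1 : H) fun i => (u i * d : H)
  have hb : Function.Bijective f := ⟨fun i j e => by
    induction i using Fin.lastCases <;> induction j using Fin.lastCases <;>
      simp only [f, Fin.lastCases_last, Fin.lastCases_castSucc] at e
    exacts [rfl, absurd e.symm (h6 _ (hu _)), absurd e (h6 _ (hu _)), hu' ((h5 _ (hu _) _ (hu _)).1 e) ▸ rfl],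
    fun q => by
    obtain ⟨g, rfl⟩ := QuotientGroup.mk_surjective q
    obtain ⟨k, hk, e⟩ := hS'.exists_conj_le (isPGroup_zpowers_two (BSW.mul_self_of_orderOf_two (hD _ (cj g (.refl _)))))
      (zpowers_le.2 (subset_closure (cj g (.refl _))))
    have h7 : k * g ∈ M := hfix t (.refl _) (hVM tV) _ (by
      simpa [mul_assoc] using hVM (e ⟨_, mem_zpowers _, rfl⟩))
    by_cases h8 : k ∈ M
    · exact ⟨Fin.last 4, QuotientGroup.eq.2 (by simpa using (mul_mem_cancel_left h8).1 h7)⟩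
    obtain ⟨s, hs, m, hm, e⟩ := e2 ⟨d, subset_closure hd⟩ ⟨k, hk⟩⁻¹ (fun h => hdM h.1) fun h => h8 (inv_mem_iff.1 h.1)
    obtain ⟨i, hi⟩ : ∃ i, u i = s.1 := by
      rcases hf.mem_four.1 (h3 s hs) with e | e | e | e
      exacts [⟨0, e.symm⟩, ⟨1, e.symm⟩, ⟨2, e.symm⟩, ⟨3, e.symm⟩]
    refine ⟨i.castSucc, ?_⟩
    simp only [f, Fin.lastCases_castSucc, QuotientGroup.eq, hi]
    have e3 : k⁻¹ = s * d * m := congrArg Subtype.val e
    convert mul_mem hm.1 h7 using 1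
    rw [← inv_inv k, e3]; simp [mul_assoc]⟩
  let e := Equiv.ofBijective f hb
  let π : H →* Perm (Fin 5) := e.symm.permCongrHom.toMonoidHom.comp (MulAction.toPermHom H (H ⧸ M))
  have hπ : ∀ h i j, π h i = j ↔ h • f i = f j := fun h i j => e.symm_apply_eq
  have f4 : f 4 = (1 : H) := rfl
  have h9 : ∀ h, π h 4 = 4 ↔ h ∈ M := fun h => by
    rw [hπ, f4, MulAction.Quotient.smul_mk, eq_comm, QuotientGroup.eq]; simp
  have h10 : ∀ h (i j : Fin 4), h * u i = u j → π h i.castSucc = j.castSucc := fun h i j e => by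
    simp only [hπ, f, Fin.lastCases_castSucc, MulAction.Quotient.smul_mk, smul_eq_mul, ← mul_assoc, e]
  refine ⟨π, Equiv.ext fun i => ?_, Equiv.ext fun i => ?_, h9, fun k hk h => ?_, d, hd, fun h => hdM ((h9 d).1 h)⟩
  · fin_cases i
    exacts [h10 t 0 1 (mul_one _), h10 t 1 0 hf.tt, h10 t 2 3 rfl, h10 t 3 2 hf.tw, (h9 t).2 (hVM tV)]
  · fin_cases i
    exacts [h10 p 0 2 (mul_one _), h10 p 1 3 hf.comm, h10 p 2 0 hf.vv, h10 p 3 1 hf.vw, (h9 p).2 (hVM pV)]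
  · have := le_oc (N := K ⊓ π.ker) (X := K) inf_le_left (le_normalizer_inf le_normalizer le_normalizer_of_normal)
      (Nat.not_even_iff_odd.1 fun he => by
        obtain ⟨v, hv, ho⟩ := exists_mem_orderOf_eq_of_dvd (even_iff_two_dvd.1 he)
        have h11 : π v = 1 := hv.2
        have h12 := (hπ v 0 0).1 (by rw [h11]; rfl)
        have h13 := h2 v (hp v hv.1 ho) ((h9 v).1 (by rw [h11]; rfl))
        exact BSW.ne_one_of_orderOf_two ho ((h5 v h13 1 (one_mem _)).1 (by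
          simpa only [show f 0 = (1 * d : H) from rfl, one_mul, MulAction.Quotient.smul_mk, smul_eq_mul] using h12)))
      ⟨hk, h⟩
    rwa [piCoreOf_compl_singleton, show pPrimeCore 2 K = ⊥ from hO, Subgroup.map_bot, mem_bot] at this

theorem fac_four (hf : Four t p) (xt : x * t * x⁻¹ = t * p) (xp : x * p * x⁻¹ = t) {c : H} (hc : c ∈ N[four t p]) :
    ∃ k ∈ zpowers x, Commute t (k⁻¹ * c) := by
  obtain ⟨k, hk, e⟩ := four_conj_t hf xt xp (conj_mem_of_mem_normalizer hc (left_mem_four t p))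
    (by simpa using hf.t_ne)
  refine ⟨k, hk, ?_⟩
  calc _ = k⁻¹ * (k * t * k⁻¹) * c := by group
    _ = _ := by rw [e]; group

theorem five' {e : H} (hf : Four t p) (xt : x * t * x⁻¹ = t * p) (xp : x * p * x⁻¹ = t)
    (hC : ∀ d, IsConj t d → Commute t d → d ∈ four t p) (hO : oddCore (closure {d | IsConj t d}) = ⊥)
    (hS : (∀ u ∈ closure {d | IsConj t d}, orderOf u = 2 → IsConj t u) →
      IsSylowIn 2 (four t p) (closure {d | IsConj t d})) (x3 : x ^ 3 = 1) (xe : x * e * x * e = p)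
    (ee : e * e = 1) (et : e * t = t * e) (ep : e * p * e = t * p) :
    ∃ x' y : H, x' ^ 3 = 1 ∧ x' * t * x'⁻¹ = t * p ∧ x' * p * x'⁻¹ = t ∧ x' * e * x' * e = p ∧ y ^ 3 = 1 ∧
      Commute y e ∧ t * y * t = y⁻¹ ∧ (y ≠ 1 → (x' * y) ^ 2 = 1) ∧
      (∀ u, Commute x u → Commute t u → Commute p u → Commute x' u ∧ Commute y u) ∧
      ∀ c, ∃ h ∈ closure {x', y, t, p}, Commute t (h⁻¹ * c) := by
  by_cases hM : N[four t p] = ⊤
  · refine ⟨x, 1, x3, xt, xp, xe, one_pow _, .one_left _, by simp [hf.tt], fun h => absurd rfl h,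
      fun u h _ _ => ⟨h, .one_left _⟩, fun c => ?_⟩
    obtain ⟨k, hk, h⟩ := fac_four hf xt xp (hM.ge (mem_top c))
    exact ⟨k, zpowers_le.2 (subset_closure (by simp)) hk, h⟩
  obtain ⟨π, a1, a2, a3, a4, d, hd, a5⟩ := five hf xt xp hC hO hS hM
  set K := closure {d | IsConj t d}
  have hn : ∀ g, ∀ k ∈ K, g * k * g⁻¹ ∈ K := fun g k hk => (closure_le (K.comap (MulAut.conj g).toMonoidHom)).2
    (fun d hd => subset_closure (hd.trans (isConj_iff.2 ⟨g, rfl⟩))) hk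
  have tK : t ∈ K := subset_closure (IsConj.refl t)
  have pK : p ∈ K := subset_closure (isConj_iff.2 ⟨x, xp⟩).symm
  have inj : ∀ a ∈ K, ∀ b ∈ K, π a = π b → a = b := fun a ha b hb h =>
    mul_inv_eq_one.1 (a4 _ (mul_mem ha (inv_mem hb)) (by rw [map_mul, h, map_inv, mul_inv_cancel]))
  have k1 : ∀ κ : Perm (Fin 5), (κ * (swap 0 1 * swap 2 3) * κ⁻¹ : Perm _) 4 ≠ 4 → ∀ T ∈ ([swap 1 2 * swap 1 3,
      swap 2 3 * swap 2 4, swap 0 1 * swap 1 2, swap 0 1 * swap 1 4] : List (Perm (Fin 5))),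
      ∃ w ∈ ([[0, 2], [2, 0], [2, 1, 2, 0], [0, 1, 2, 1], [1, 2, 0, 1], [0, 2, 1, 2], [2, 0, 1, 2, 0],
      [0, 2, 0, 1, 2], [2, 1, 2, 0, 2], [0, 2, 1, 2, 0, 2], [1, 2, 1, 2, 0, 2], [2, 0, 2, 0, 1, 2],
      [0, 1, 2, 1, 2, 1], [1, 2, 1, 2, 0, 1], [2, 0, 1, 2, 1, 2], [2, 1, 2, 0, 2, 0], [1, 2, 0, 1, 2, 0, 1],
      [0, 1, 2, 0, 1, 2, 1], [0, 2, 0, 1, 2, 1, 2], [2, 0, 1, 2, 1, 2, 0], [1, 2, 0, 1, 2, 1, 2],
      [1, 2, 0, 2, 0, 1, 2], [2, 0, 2, 0, 1, 2, 0], [0, 2, 0, 2, 0, 1, 2]] : List (List (Fin 3))),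
      (w.map ![swap 0 1 * swap 2 3, swap 0 2 * swap 1 3, κ * (swap 0 1 * swap 2 3) * κ⁻¹]).prod = T := by
    decide +kernel
  have k2 : ∀ σ τ ρ : Perm (Fin 5), τ = swap 0 1 * swap 2 3 → ρ = swap 0 2 * swap 1 3 → σ * σ = 1 → σ * τ = τ * σ →
      σ * ρ * σ = τ * ρ → ∃ X ∈ ([swap 1 2 * swap 1 3, swap 2 3 * swap 2 4, swap 0 1 * swap 1 2,
      swap 0 1 * swap 1 4] : List (Perm (Fin 5))), ∃ Y ∈ ([swap 1 2 * swap 1 3, swap 2 3 * swap 2 4,
      swap 0 1 * swap 1 2, swap 0 1 * swap 1 4] : List (Perm (Fin 5))), X ^ 3 = 1 ∧ X * τ * X⁻¹ = τ * ρ ∧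
      X * ρ * X⁻¹ = τ ∧ X * (σ * X * σ⁻¹) = ρ ∧ Y ^ 3 = 1 ∧ σ * Y * σ⁻¹ = Y ∧ τ * Y * τ = Y⁻¹ ∧ (X * Y) ^ 2 = 1 ∧
      ∀ i, ∃ h ∈ [1, Y, τ * Y, ρ * Y, τ * ρ * Y], h 4 = i := by
    rintro σ _ _ rfl rfl; revert σ; decide +kernel
  have k3 : ∀ σ : Perm (Fin 5), σ * (swap 0 1 * swap 2 3) = swap 0 1 * swap 2 3 * σ →
      σ * (swap 0 2 * swap 1 3) = swap 0 2 * swap 1 3 * σ → σ = 1 ∨ ∀ τ : Perm (Fin 5), τ * σ = σ * τ →
      τ * (swap 0 1 * swap 2 3) * τ⁻¹ = swap 0 1 * swap 2 3 * (swap 0 2 * swap 1 3) →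
      τ * (swap 0 2 * swap 1 3) * τ⁻¹ ≠ swap 0 1 * swap 2 3 := by decide +kernel
  obtain ⟨k, rfl⟩ := isConj_iff.1 hd
  have h1 : ∀ T ∈ _, ∃ a ∈ K, π a = T := fun T hT => by
    obtain ⟨w, -, e⟩ := k1 (π k) (by simpa only [map_mul, map_inv, a1] using a5) T hT
    refine ⟨(w.map ![t, p, k * t * k⁻¹]).prod, list_prod_mem fun a ha => ?_, ?_⟩
    · obtain ⟨i, -, rfl⟩ := List.mem_map.1 ha
      fin_cases i
      exacts [tK, pK, hn k t tK]
    · rw [← e, map_list_prod, List.map_map]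
      congr 2
      ext1 i
      fin_cases i <;> simp [a1, a2]
  obtain ⟨_, hX, _, hY, b1, b2, b3, b4, b5, b6, b7, b8, b9⟩ := k2 (π e) _ _ a1 a2 (by rw [← map_mul, ee, map_one])
    (by rw [← map_mul, et, map_mul]) (by rw [← map_mul, ← map_mul, ep, map_mul])
  obtain ⟨x', hx, rfl⟩ := h1 _ hX
  obtain ⟨y, hy, rfl⟩ := h1 _ hY
  simp only [← map_mul, ← map_inv, ← map_pow] at b1 b2 b3 b4 b5 b6 b7 b8
  have ie := inv_eq_of_mul_eq_one_right ee
  refine ⟨x', y, a4 _ (pow_mem hx _) b1, inj _ (hn _ _ tK) _ (mul_mem tK pK) b2, inj _ (hn _ _ pK) _ tK b3, by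
      simpa only [ie, mul_assoc] using inj _ (mul_mem hx (hn _ _ hx)) _ pK b4, a4 _ (pow_mem hy _) b5,
    (mul_inv_eq_iff_eq_mul.1 (inj _ (hn _ _ hy) _ hy b6)).symm, inj _ (mul_mem (mul_mem tK hy) tK) _ (inv_mem hy) b7,
    fun _ => a4 _ (pow_mem (mul_mem hx hy) _) b8, fun u h2 h3 h4 => ?_, fun c => ?_⟩
  · have h5 : π u = 1 := (k3 _ (a1 ▸ (h3.map π).eq.symm) (a2 ▸ (h4.map π).eq.symm)).resolve_right fun h =>
      h _ (h2.map π) (by rw [← a1, ← a2]; simpa using congrArg π xt) (by rw [← a1, ← a2]; simpa using congrArg π xp)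
    have h6 : ∀ a ∈ K, Commute a u := fun a ha =>
      (mul_inv_eq_iff_eq_mul.1 (inj _ (hn u a ha) _ ha (by simp [h5]))).symm
    exact ⟨h6 _ hx, h6 _ hy⟩
  · obtain ⟨_, h2, h3⟩ := b9 (π c 4)
    rw [show [1, π y, π t * π y, π p * π y, π t * π p * π y] = [1, y, t * y, p * y, t * p * y].map π by simp] at h2
    obtain ⟨h, h4, rfl⟩ := List.mem_map.1 h2
    obtain ⟨l, hl, h5⟩ := fac_four hf (inj _ (hn _ _ tK) _ (mul_mem tK pK) b2) (inj _ (hn _ _ pK) _ tK b3)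
      ((a3 (h⁻¹ * c)).1 (by rw [map_mul, Perm.mul_apply, ← h3, map_inv, Perm.inv_eq_iff_eq]))
    have h6 : ∀ a ∈ ({x', y, t, p} : Set H), a ∈ closure {x', y, t, p} := subset_closure
    refine ⟨h * l, mul_mem ?_ (zpowers_le.2 (h6 _ (by simp)) hl), by rwa [mul_inv_rev, mul_assoc]⟩
    have h7 := h6 y (by simp); have h8 := h6 t (by simp); have h9 := h6 p (by simp)
    exact (show ∀ a ∈ [1, y, t * y, p * y, t * p * y], a ∈ closure {x', y, t, p} by simp [*, mul_mem]) h h4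

end Cfsg.Lib.D6
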