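import Mathlib
import Cfsg.Agent.Lib.Golay.PermCode

/-!
# A brute force computation in `S₇`
-/

set_option autoImplicit false
set_option synthInstance.maxSize 8000
set_option maxRecDepth 100000

namespace Cfsg.Lib.D6.S7
open Equiv Cfsg.Lib.PC

def cd (g : Perm (Fin 7)) : ℕ := PC.mk 3 7 fun i => (g (Fin.ofNat 7 i)).1

theorem app_cd (g : Perm (Fin 7)) (i : ℕ) (hi : i < 7) : app 3 (cd g) i = (g (Fin.ofNat 7 i)).1 :=
  app_mk 3 7 _ (fun _ _ => (g _).2.trans (by norm_num)) i hi

def mu (a b : ℕ) : ℕ := force a fun a => force b fun b => comp 3 7 a b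

theorem mk_congr {k n : ℕ} {f g : ℕ → ℕ} (h : ∀ i < n, f i = g i) : PC.mk k n f = PC.mk k n g := by
  induction n with
  | zero => rfl
  | succ n ih => rw [mk_succ, mk_succ, ih fun i hi => h i (by omega), h n (by omega)]

theorem cd_mul (g h : Perm (Fin 7)) : cd (g * h) = mu (cd g) (cd h) := by
  rw [mu, force_eq, force_eq]
  refine mk_congr fun i hi => ?_
  rw [app_cd h i hi, app_cd g _ (h _).2, Fin.ofNat_val_eq_self, Perm.mul_apply]

theorem cd_inj {g h : Perm (Fin 7)} : cd g = cd h ↔ g = h :=
  ⟨fun e => Equiv.ext fun i => Fin.ext (by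
    have := app_cd g i.1 i.2
    rw [e, app_cd h i.1 i.2, Fin.ofNat_val_eq_self] at this
    exact this.symm), fun e => by rw [e]⟩

theorem cd_one : cd 1 = 1754760 := by decide +kernel

def t0 : Perm (Fin 7) := swap 0 1 * swap 2 3

theorem cd_t0 : cd t0 = 1754305 := by decide +kernel

def AllP (f : ℕ → Bool) : Prop := ∀ a b : Fin 7, b ≠ a → ∀ c : Fin 7, c ≠ a → c ≠ b → ∀ d : Fin 7, d ≠ a → d ≠ b →
  d ≠ c → ∀ e : Fin 7, e ≠ a → e ≠ b → e ≠ c → e ≠ d → ∀ u : Fin 7, u ≠ a → u ≠ b → u ≠ c → u ≠ d → u ≠ e →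
  ∀ v : Fin 7, v ≠ a → v ≠ b → v ≠ c → v ≠ d → v ≠ e → v ≠ u →
  force (a.1 + 8 * b.1 + 64 * c.1 + 512 * d.1 + 4096 * e.1 + 32768 * u.1 + 262144 * v.1) f = true

theorem AllP.spec {f : ℕ → Bool} (h : AllP f) (g : Perm (Fin 7)) : f (cd g) = true := by
  have := h (g 0) (g 1) (by simp) (g 2) (by simp) (by simp) (g 3) (by simp) (by simp) (by simp) (g 4) (by simp)
    (by simp) (by simp) (by simp) (g 5) (by simp) (by simp) (by simp) (by simp) (by simp) (g 6) (by simp) (by simp)
    (by simp) (by simp) (by simp) (by simp)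
  rw [force_eq] at this
  convert this using 2
  simp only [cd, mk_succ]
  show 0 + (g 0).1 * _ + (g 1).1 * _ + (g 2).1 * _ + (g 3).1 * _ + (g 4).1 * _ + (g 5).1 * _ + (g 6).1 * _ = _
  omega

def I2 : List ℕ := [1754760, 1525384, 1726088, 1238664, 1751176, 1521800, 1690248, 1174152, 969864, 941192, 1754312, 1524936, 1725640, 1238216, 1746696, 1517320, 1682184, 961800, 1656648, 1140552, 1653064, 871752, 706440, 677768, 702856, 641928, 1754704, 1525328, 1726032, 1238608, 1751120, 1521744, 1690192, 1174096, 969808, 941136, 1753752, 1524376, 1725080, 1237656, 1745688, 1516312, 1655640, 1139544, 705432, 676760, 1742496, 1513120, 1677984, 957600, 1742048, 1512672, 1644384, 859488, 694176, 629664, 1623720, 1107624, 1620136, 838824, 1623272, 1107176, 1615656, 830760, 575400, 571816, 444080, 415408, 440496, 379568, 443632, 414960, 436016, 371504, 345968, 342384, 1754753, 1525377, 1726081, 1238657, 1751169, 1521793, 1690241, 1174145, 969857, 941185, 1754305, 1524929, 1725633, 1238209, 1746689, 1517313, 1682177,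 961793, 1656641, 1140545, 1653057, 871745, 706433, 677761, 702849, 641921, 1754634, 1525258, 1725962, 1238538, 1751050, 1521674, 1690122, 1174026, 969738, 941066, 1753626, 1524250, 1724954, 1237530, 1742370, 1512994, 1677858, 957474, 1623594, 1107498, 1620010, 838698, 443954, 415282, 440370, 379442, 1753227, 1523851, 1724555, 1237131, 1745163, 1515787, 1655115, 1139019, 704907, 676235, 1753171, 1523795, 1724499, 1237075, 1740963, 1511587, 1642851, 692643, 1622187, 1106091, 1614123, 573867, 442547, 413875, 434483, 344435, 1738380, 1509004, 1673868, 953484, 1737932, 1508556, 1640268, 855372, 690060, 625548, 1738324, 1508948, 1673812, 953428, 1737372, 1507996, 1639260, 689052, 1607340, 822444, 1606892, 559020, 427700, 363188, 427252, 329588, 1590925, 1074829, 1587341, 806029, 1590477, 1074381, 1582861, 797965, 542605, 539021, 1590869, 1074773, 1587285, 805973, 1589917, 1073821, 1581853, 541597, 1578661, 793765, 1578213, 530341, 280245, 276661, 279797, 272181, 181902, 153230, 178318, 117390, 181454, 152782,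 173838, 109326, 83790, 80206, 181846, 153174, 178262, 117334, 180894, 152222, 172830, 82782, 169638, 105126, 169190, 71526, 50862, 47278, 50414, 42798]

def T3 : List ℕ := [1754760, 1267336, 1468040, 1693832, 977032, 1718920, 1002120, 1227912, 1428616, 1747144, 1657544, 707784, 1750280, 1660680, 714504, 1688904, 1713992, 739144, 968072, 1222536, 1394568, 1753808, 1266384, 1467088, 1742608, 989968, 1416464, 1623888, 846160, 1097040, 444304, 383376, 408464, 1754200, 1266776, 1467480, 1743000, 1624728, 445592, 584472, 351512, 727384, 404824, 1382808, 1092504, 1746528, 993888, 1420384, 1749664, 1627808, 452256, 355040, 580832, 734048, 386400, 1389472, 841120, 1656424, 878696, 1129576, 1688232, 1709736, 476840, 469224, 662760, 647976, 472360, 1156008, 923048, 706160, 645232, 670320, 967344, 1218224, 1361584, 1353968, 1121008, 873264, 1357104, 926576, 1152368, 1754641, 1267217, 1467921, 1693713, 976913, 1718801, 1002001, 1227793, 1428497, 1753241, 1265817, 1466521, 1659161, 712985, 1712473, 737625, 1221017, 1393049,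 1738401, 985761, 1412257, 1641185, 691425, 1672545, 722785, 951713, 1378209, 1590953, 813225, 1064105, 1583337, 543977, 1586473, 550697, 804265, 1058729, 181937, 121009, 146097, 174321, 84721, 177457, 87857, 116081, 141169, 1754690, 1267266, 1467970, 1693762, 976962, 1718850, 1002050, 1227842, 1428546, 1753290, 1265866, 1466570, 1738506, 985866, 1412362, 1591114, 813386, 1064266, 182154, 121226, 146314, 1608474, 429338, 1579354, 281946, 170394, 52122, 1626338, 450786, 1586018, 288610, 177058, 55202, 1708266, 475370, 1671978, 460586, 115626, 137130, 1216754, 1360114, 951090, 1345330, 803698, 1054578, 1753731, 1266307, 1467011, 1659651, 713475, 1712963, 738115, 1221507, 1393539, 1754123, 1266699, 1467403, 1738891, 1591947, 183435, 551691, 89355, 723275, 142667, 1378699, 1059723, 1579795, 171283, 1608019, 52563, 428435, 281491, 1627171, 451619, 1583715, 175203, 289443, 56483, 1709099, 476203, 1640555, 85099, 460971, 138411, 1217587, 1360947, 690291, 543347, 1345715, 1055411, 1742468, 989828, 1416324, 1645252,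 695492, 1676612, 726852, 955780, 1382276, 1746444, 993804, 1420300, 1749132, 1595020, 190092, 92876, 548044, 733516, 124236, 1388940, 808332, 1594068, 189140, 1618260, 59220, 438676, 284564, 1616412, 437276, 1594460, 189532, 60060, 285852, 1679916, 468524, 1650796, 91756, 471212, 123564, 959028, 1353268, 700532, 546420, 1355956, 807604, 1623685, 845957, 1096837, 1616069, 576709, 1619205, 583429, 836997, 1091461, 1656333, 878605, 1129485, 1687693, 1705613, 214669, 207053, 658637, 647437, 210189, 1155469, 918925, 1704661, 213717, 1675541, 202517, 377237, 395157, 1644573, 347165, 1705053, 214109, 202909, 396445, 1651237, 353829, 1679461, 206437, 385189, 209573, 868917, 1119797, 639093, 657013, 1151157, 918197, 444038, 383110, 408198, 436422, 346822, 439558, 349958, 378182, 403270, 706062, 645134, 670222, 966798, 1214094, 1328782, 1321166, 1116878, 872718, 1324302, 926030, 1148238, 1213142, 1327830, 954646, 1316630, 835926, 1083222, 694302, 576030, 1213534, 1328222, 1317022, 1084062, 700966, 579110, 958566,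 1320550, 839846, 1323686, 639534, 661038, 868462, 1115758, 921774, 1147566]

def im (a b : Bool) : Bool := Bool.rec (motive := fun _ => Bool) true b a

theorem im_iff {a b : Bool} : im a b = true ↔ (a = true → b = true) := by cases a <;> simp [im]

def mm (l : List ℕ) (c : ℕ) : Bool := !allL l fun x => !Nat.beq x c

theorem mm_iff {l : List ℕ} {c : ℕ} (h : mm l c = true) : c ∈ l := by
  by_contra hc
  rw [mm, (allL_iff _ _).2 fun x hx => by
    cases e : Nat.beq x c
    · rfl
    · exact absurd (Nat.eq_of_beq_eq_true e ▸ hx) hc] at h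
  exact absurd h (by decide)

theorem enum : AllP fun c => force (mu c c) fun s => im (Nat.beq s 1754760) (mm I2 c) &&
    im (Nat.beq (mu s c) 1754760) (mm T3 c) := by
  unfold AllP; decide +kernel

theorem mem_I2 {g : Perm (Fin 7)} (h : g * g = 1) : cd g ∈ I2 := by
  have := enum.spec g
  rw [force_eq, Bool.and_eq_true, im_iff, ← cd_mul, h, cd_one] at this
  exact mm_iff (this.1 rfl)

theorem mem_T3 {g : Perm (Fin 7)} (h : g ^ 3 = 1) : cd g ∈ T3 := by
  have := enum.spec g
  rw [force_eq, Bool.and_eq_true, im_iff, im_iff, ← cd_mul, ← cd_mul, ← pow_three', h, cd_one] at this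
  exact mm_iff (this.2 rfl)

def cb (a : ℕ) : Bool := force a fun a => Nat.beq (mu (mu a a) a) 1754760

theorem cb_iff {g : Perm (Fin 7)} : cb (cd g) = true ↔ g ^ 3 = 1 := by
  rw [cb, force_eq, ← cd_mul, ← cd_mul, ← cd_one, Nat.beq_eq, cd_inj, pow_three']

def eqc (a b c d : ℕ) : Bool := Nat.beq (mu a b) (mu c d)

theorem eqc_iff {a b c d : Perm (Fin 7)} : eqc (cd a) (cd b) (cd c) (cd d) = true ↔ a * b = c * d := by
  rw [eqc, ← cd_mul, ← cd_mul, Nat.beq_eq, cd_inj]

def sqe (a b c : ℕ) : Bool := force (mu a b) fun s => Nat.beq (mu s s) c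

theorem sqe_iff {a b c : Perm (Fin 7)} : sqe (cd a) (cd b) (cd c) = true ↔ a * b * (a * b) = c := by
  rw [sqe, force_eq, ← cd_mul, ← cd_mul, Nat.beq_eq, cd_inj]

def chk (o t : ℕ) : Bool := allL I2 fun p => im (eqc p t t p) (allL I2 fun e => im (sqe p e t) (allL T3 fun x =>
  im (eqc x p t x) (im (eqc x t (mu p t) x) (im (sqe x e p) (allL I2 fun r => im (eqc r e e r)
  (im (eqc (mu r t) r e t) (im (cb (mu r p)) (im (cb (mu (mu x p) r) == cb (mu (mu (mu (mu t x) t) p) r))
  (sqe (mu x r) (mu x r) o && allL T3 fun y => im (eqc y e e y) (im (sqe t y o) (im (Nat.beq y o || sqe x y o)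
  (eqc y r r y))))))))))))

theorem chk_true : chk 1754760 1754305 = true := by decide +kernel

attribute [local irreducible] cd mu cb eqc sqe I2 T3 im t0

theorem s7' {p e r x y : Perm (Fin 7)} (hp : p * p = 1) (he : e * e = 1) (hr : r * r = 1) (h0 : p * t0 = t0 * p)
    (h1 : p * e * (p * e) = t0) (h3 : r * e = e * r) (h4 : r * t0 * r = e * t0) (h5 : (r * p) ^ 3 = 1)
    (x3 : x ^ 3 = 1) (xt : x * t0 = p * t0 * x) (xp : x * p = t0 * x) (xe : x * e * x * e = p)
    (hs : (x * p * r) ^ 3 = 1 ↔ (t0 * x * t0 * p * r) ^ 3 = 1)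
    (y3 : y ^ 3 = 1) (ye : y * e = e * y) (yt : t0 * y * t0 * y = 1) (xy : y ≠ 1 → (x * y) ^ 2 = 1) :
    (x * r) ^ 4 = 1 ∧ y * r = r * y := by
  have := chk_true
  simp only [← cd_one, ← cd_t0, chk, allL_iff, im_iff, Bool.and_eq_true] at this
  have := this _ (mem_I2 hp) (eqc_iff.2 h0) _ (mem_I2 he) (sqe_iff.2 h1) _ (mem_T3 x3) (eqc_iff.2 xp)
    (by rw [← cd_mul, eqc_iff, xt]) (sqe_iff.2 (by rw [← xe]; group)) _ (mem_I2 hr) (eqc_iff.2 h3)
    (by rw [← cd_mul, eqc_iff, h4]) (by rw [← cd_mul, cb_iff, h5]) (by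
      simp only [← cd_mul, beq_iff_eq]
      exact Bool.eq_iff_iff.2 (by rw [cb_iff, cb_iff, hs]))
  refine ⟨?_, eqc_iff.1 (this.2 _ (mem_T3 y3) (eqc_iff.2 ye) (sqe_iff.2 (by rw [← yt]; group)) ?_)⟩
  · have h := this.1
    rw [← cd_mul, sqe_iff] at h
    rw [← h]
    simp only [pow_succ, pow_zero, one_mul, mul_assoc]
  · rw [Bool.or_eq_true, Nat.beq_eq, cd_inj, sqe_iff, ← sq]
    exact (em _).imp_right xy

attribute [local semireducible] t0 in
theorem conj_t0 {c t : Perm (Fin 7)} (ht : t ≠ 1) (h1 : c * c = t) (h2 : t * t = 1) : IsConj t t0 := by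
  have key : ∀ c t : Perm (Fin 7), t ≠ 1 → Perm.sign t = 1 → t * t = 1 → t.cycleType = Multiset.replicate 2 2 :=
    fun c t ht h1 h2 => by
      have h3 : orderOf t = 2 := orderOf_eq_prime (by rw [sq, h2]) ht
      obtain ⟨n, hn⟩ := Perm.cycleType_prime_order (σ := t) (h3 ▸ Nat.prime_two)
      have h4 := Perm.sum_cycleType t
      have h5 := t.support.card_le_univ
      have h6 := Perm.sign_of_cycleType t
      rw [← h4] at h5
      rw [hn, h3] at h5 h6 ⊢
      simp only [Multiset.sum_replicate, smul_eq_mul, Fintype.card_fin, Multiset.card_replicate, h1] at h5 h6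
      obtain rfl | rfl | rfl : n = 0 ∨ n = 1 ∨ n = 2 := by omega
      all_goals first | rfl | exact absurd h6 (by decide)
  rw [Perm.isConj_iff_cycleType_eq, key c t ht (by rw [← h1]; simp) h2,
    key c t0 (by decide) (by simp [t0]) (by decide)]

end Cfsg.Lib.D6.S7
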