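import Cfsg.Agent.Lib.D6.W2

/-!
# The possible actions of `N(A)` on `A`
-/

set_option autoImplicit false
set_option synthInstance.maxSize 8000
set_option maxRecDepth 100000

namespace Cfsg.Lib.D6
open Equiv Subgroup Cfsg.Lib.PC

/-- the types of the elements of `A` -/
def ty (c : Fin 64) : ℕ := app 4 76680462287185603155367099281713063873238205123045791184688873139206845846832 c.1

def rep (t : ℕ) : Fin 64 := [0, 21, 37, 16, 5, 48, 6, 10, 26, 42, 63].getD t 0

/-- the three possible actions -/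
def Fb (t : ℕ) : Fin 64 → Fin 64 :=
  if t = 0 then lin 14 50 11 56 32 16 else if t = 1 then lin 10 50 15 51 32 16 else lin 1 2 4 12 32 16

def lab (c : Fin 64) : ℕ := app 3 730840021646248178059905257662718496216413481232 c.1

def ev (F : Fin 64 → Fin 64) (w : List (Fin 24)) : Fin 64 → Fin 64 := w.foldr (fun j h c => F (L j (h c))) F

def Bad (h : Fin 64 → Fin 64) : Prop :=
  (∃ c, tb 8691260416 (8 * lab c + lab (h c)) = true) ∨
    (h 21 = 21 ∧ ∀ j, ∃ c, h c ≠ L j c)

instance (h : Fin 64 → Fin 64) : Decidable (Bad h) := by unfold Bad; infer_instance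

def ap (T : ℕ) (x : Fin 64) : Fin 64 := ⟨app 6 T x.1, app_lt _ _ _⟩
def code (F : Fin 64 → Fin 64) : ℕ := PC.mk 6 64 fun i => (F (Fin.ofNat 64 i)).1

theorem ap_code (F : Fin 64 → Fin 64) : ap (code F) = F := funext fun x => Fin.ext
  ((app_mk 6 64 _ (fun i _ => (F _).2) _ x.2).trans (by rw [Fin.ofNat_val_eq_self]))

def Good (j k : Fin 24) (F : Fin 64 → Fin 64) : Prop :=
  (∀ x, F (L 4 x) = L j (F x)) → (∀ x, F (L 1 x) = L k (F x)) → (∀ x, F x = 0 → x = 0) →
    (∃ t ∈ [0, 1, 2], ∃ i ∈ ([0, 1, 4, 5] : List (Fin 24)), ∀ x, F (L i x) = Fb t x) ∨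
    ∃ w ∈ ([[2, 2], [8, 8], [9, 8], [16, 8], [17, 8], [8, 8, 8], [9, 8, 8], [8, 9, 8], [9, 9, 8]] :
      List (List (Fin 24))), Bad (ev F w)

instance (j k : Fin 24) (F : Fin 64 → Fin 64) : Decidable (Good j k F) := by unfold Good; infer_instance

def Srch (j k : Fin 24) : Prop := ∀ a : Fin 64,
  force (code (lin (a ^^^ L k a) a (L j (a ^^^ L k a)) (L j a) (48 ^^^ (21 ^^^ (a ^^^ L k a) ^^^ L j (a ^^^ L k a)))
    (21 ^^^ (a ^^^ L k a) ^^^ L j (a ^^^ L k a)))) (fun T => decide (Good j k (ap T))) = true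

theorem srch14 : Srch 1 4 := by unfold Srch; decide +kernel
theorem srch15 : Srch 1 5 := by unfold Srch; decide +kernel
theorem srch41 : Srch 4 1 := by unfold Srch; decide +kernel
theorem srch45 : Srch 4 5 := by unfold Srch; decide +kernel
theorem srch51 : Srch 5 1 := by unfold Srch; decide +kernel
theorem srch54 : Srch 5 4 := by unfold Srch; decide +kernel

theorem search {j k : Fin 24} (hj : j ∈ [0, 1, 4, 5]) (hk : k ∈ [0, 1, 4, 5]) (h1 : j ≠ 0) (h2 : k ≠ 0) (h3 : j ≠ k) :
    Srch j k := by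
  simp only [List.mem_cons, List.not_mem_nil, or_false, h1, h2, false_or] at hj hk
  rcases hj with rfl | rfl | rfl <;> rcases hk with rfl | rfl | rfl <;>
    simp only [srch14, srch15, srch41, srch45, srch51, srch54, ne_eq, not_true] at h3 ⊢

end Cfsg.Lib.D6
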