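import Mathlib
import Cfsg.Agent.Lib.Golay.PermCode
import Cfsg.Agent.Lib.Coprime.Sylow

/-!
# The Weyl group of type `D₆` as the centralizer in `A₁₂` of a fixed-point-free involution
-/

set_option autoImplicit false
set_option synthInstance.maxSize 8000
set_option maxRecDepth 100000

namespace Cfsg.Lib.D6
open Equiv Subgroup Cfsg.Lib.PC

abbrev P12 := Perm (Fin 12)

def a0 : P12 := swap (0 : Fin 12) 1 * swap (2 : Fin 12) 3 * swap (4 : Fin 12) 5 * swap (6 : Fin 12) 7 *
  swap (8 : Fin 12) 9 * swap (10 : Fin 12) 11

abbrev Wg : Subgroup P12 := alternatingGroup (Fin 12) ⊓ centralizer {a0}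

def bar (p : Fin 12) : Fin 12 := p ^^^ 1

theorem a0_apply : ∀ p, a0 p = bar p := by decide +kernel
theorem bar_bar : ∀ p, bar (bar p) = p := by decide +kernel
theorem bar_ne : ∀ p, bar p ≠ p := by decide +kernel

theorem mem_W {x : P12} : x ∈ Wg ↔ Perm.sign x = 1 ∧ ∀ p, x (bar p) = bar (x p) := by
  rw [mem_inf, Perm.mem_alternatingGroup, mem_centralizer_singleton_iff, Equiv.ext_iff]
  simp only [Perm.mul_apply, a0_apply]

theorem W_bar (x : Wg) (p : Fin 12) : x.1 (bar p) = bar (x.1 p) := (mem_W.1 x.2).2 p

/-- reflections -/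
def rr (p q : Fin 12) : Wg := ⟨swap p q * swap (bar p) (bar q), mem_W.2 ⟨by
  by_cases h : p = q
  · simp [h]
  · have : bar p ≠ bar q := fun e => h (by rw [← bar_bar p, e, bar_bar])
    simp [Perm.sign_swap h, Perm.sign_swap this], by revert p q; decide +kernel⟩⟩

/-- sign changes -/
def ee (p q : Fin 12) : Wg := ⟨swap p (bar p) * swap q (bar q), mem_W.2 ⟨by
  simp [Perm.sign_swap (bar_ne _).symm], by revert p q; decide +kernel⟩⟩

theorem conj_rr (g : Wg) (p q : Fin 12) : g * rr p q * g⁻¹ = rr (g.1 p) (g.1 q) := Subtype.ext (by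
  simp only [rr, coe_mul, coe_inv, ← W_bar, swap_apply_apply]; group)

theorem conj_ee (g : Wg) (p q : Fin 12) : g * ee p q * g⁻¹ = ee (g.1 p) (g.1 q) := Subtype.ext (by
  simp only [ee, coe_mul, coe_inv, ← W_bar, swap_apply_apply]; group)

def v4 (a b : Fin 12) (d : ℕ) : Wg :=
  if d = 0 then 1 else if d = 1 then ee a b else if d = 2 then rr a b else rr a (bar b)

/-- the elementary abelian group `V₄ × V₄ × V₄` -/
def av (c : Fin 64) : Wg := v4 0 2 (c.1 % 4) * v4 4 6 (c.1 / 4 % 4) * v4 8 10 (c.1 / 16)

def avf (c : Fin 64) (i : Fin 12) : Fin 12 := i ^^^ Fin.ofNat 12 (app 2 c.1 (i.1 / 4))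

theorem av_apply : ∀ c i, (av c).1 i = avf c i := by decide +kernel

theorem av_mul (c d : Fin 64) : av c * av d = av (c ^^^ d) := Subtype.ext (Equiv.ext fun i => by
  rw [coe_mul, Perm.mul_apply, av_apply, av_apply, av_apply]
  revert c d i; decide +kernel)

theorem av_zero : av 0 = 1 := by decide +kernel
theorem av_al : (av 21).1 = a0 := by decide +kernel
theorem xr_self : ∀ c : Fin 64, c ^^^ c = 0 := by decide +kernel
theorem xr_comm : ∀ c d : Fin 64, c ^^^ d = d ^^^ c := by decide +kernel
theorem av_sq (c : Fin 64) : av c * av c = 1 := by rw [av_mul, xr_self, av_zero]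
theorem av_comm (c d : Fin 64) : av c * av d = av d * av c := by rw [av_mul, av_mul, xr_comm]

theorem av_inj : Function.Injective av := fun c d h => by
  have : ∀ i, avf c i = avf d i := fun i => by rw [← av_apply, ← av_apply, h]
  revert c d; decide +kernel

theorem al_comm (x : Wg) : x * av 21 = av 21 * x :=
  Subtype.ext (by rw [coe_mul, coe_mul, av_al]; exact mem_centralizer_singleton_iff.1 x.2.2)

def bp (s : ℕ) : Wg :=
  if s = 0 then 1 else if s = 1 then rr 0 4 * rr 2 6 else if s = 2 then rr 4 8 * rr 6 10 else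
  if s = 3 then rr 0 4 * rr 2 6 * (rr 4 8 * rr 6 10) else if s = 4 then rr 4 8 * rr 6 10 * (rr 0 4 * rr 2 6) else
  rr 0 8 * rr 2 10

def sw (m : ℕ) : Wg := if m = 0 then 1 else if m = 1 then ee 0 4 else if m = 2 then ee 0 8 else ee 4 8

/-- a complement `S₄` to `A` in its normalizer -/
def nn (j : Fin 24) : Wg := bp (j.1 / 4) * sw (j.1 % 4)

def tbl : ℕ := 179730451604731146363098186682055753719655910999905562786250443538564996662963994637691807846205368472335155915248842922335444813786863685945532261896167730455964481197147293088079107009848342106632298511606006044873337697947828499150891290814642646855997419370689439681582248745338350635825619745236847709281106949208207073527177673602700770486384302346920535587934711162088660487760548600192182447828277085179967147591211847908224276300492976674465598925468176256741589551121637990563718115551158138239687141199960267970699409582960736701449727305871857232504123473574113191339361258517584889432176784930268193394339603780236291465079560210844106268496127780709553679734440131347180922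8686997144053179106186687506904634156952406172292302338564286497710771474358300550370332221238020833849529050171423849827388457201399731219643351329780598124968117301137427188820223801520567348990724357877862571072807663580793656869873867401915095158016401351467920322741598897200302714528797754796213324416591469692257240433025005754507988125066693285945419553439421960393160795318988413807930048531481889565905426468912836213853506187828073825985795711629602567350380261504131066234523042114578330633152322240380280437640244222438648422844552658263398895658259027011343835662898574202108926515772841509804090973335755946015571747109942706642703704863185969082824527979302782524387699295815967869252206313796210204321578669929387548741457387479846284036145229057041505524172430652613194826139889050207712175397542691197701862233087984880564967536511688673630733236425543074877623072980590163101221835938578164818966687091779789503977849117929200864504866041683173624375330973162535095664242307251647581353202112072401992464098604319212145997867538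04393726096588308046992741554581315083779204882350247199399285414182256292817121525405101062095225032906876312392039992627152798797441727603160173771148133778010994560713879493589153656988856196010770299649044531843236137635919343114264778476807939433696960922191932430676532388883415252569004740267222635578990892474350662039781397638386013360269025704939894545066558046210325758274603936614324117637574360711855528937371428216502024743151615403968266426859203774475731229389336790024307581937749338431279436347860341102849003259778792389782761930251356381141489160035784998563637789759715148904817647428926719244991046020638894057461240800053899277257182550002446643016438953438642358976218262067769276604882342908982630745346691524851551703745956065789072933384236663427798218297805857927399205671004679387925526498636942285291561930337264153467379224438972718755185506567388612541307781083106385945147993479764371281953743558464642720529177258343502296092315878163028597225905977328423448915890767675573448775861833981101860391805001792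

/-- the action of `nn j` on `A` -/
def L (j : Fin 24) (c : Fin 64) : Fin 64 := ⟨app 6 tbl (64 * j.1 + c.1), app_lt _ _ _⟩

theorem nn_av (j : Fin 24) (c : Fin 64) : nn j * av c * (nn j)⁻¹ = av (L j c) := by
  rw [mul_inv_eq_iff_eq_mul]
  refine Subtype.ext (Equiv.ext fun i => ?_)
  rw [coe_mul, coe_mul, Perm.mul_apply, Perm.mul_apply, av_apply, av_apply]
  revert j c i; decide +kernel

/-- `A` is self-centralizing in `S₁₂` -/
theorem cent_A {x : P12} (h : ∀ c, x * (av c).1 = (av c).1 * x) : ∃ c, x = (av c).1 := by
  have h1 : ∀ c i, x (avf c i) = avf c (x i) := fun c i => by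
    rw [← av_apply, ← av_apply, ← Perm.mul_apply, h, Perm.mul_apply]
  have h2 : ∀ c i, avf c i ≠ i → avf c (x i) ≠ x i := fun c i hi e => hi (x.injective (by rw [h1, e]))
  have key : ∀ a b c : Fin 12, avf 1 a ≠ a → avf 4 b ≠ b → avf 16 c ≠ c → ∃ d : Fin 64,
      avf d 0 = a ∧ avf d 4 = b ∧ avf d 8 = c := by decide +kernel
  obtain ⟨d, e0, e1, e2⟩ := key _ _ _ (h2 1 0 (by decide)) (h2 4 4 (by decide)) (h2 16 8 (by decide))
  have k2 : ∀ i : Fin 12, ∃ c, i = avf c 0 ∨ i = avf c 4 ∨ i = avf c 8 := by decide +kernel
  have k3 : ∀ c d i, avf c (avf d i) = avf d (avf c i) := fun c d i => by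
    simp only [← av_apply, ← Perm.mul_apply, ← coe_mul, av_comm c d]
  refine ⟨d, Equiv.ext fun i => ?_⟩
  obtain ⟨c, rfl | rfl | rfl⟩ := k2 i <;> rw [h1, av_apply, k3] <;> simp only [e0, e1, e2]

theorem cent_A' {x : Wg} (h : ∀ c, x * av c = av c * x) : ∃ c, x = av c :=
  let ⟨c, e⟩ := cent_A (x := x.1) fun c => congrArg Subtype.val (h c); ⟨c, Subtype.ext e⟩

/-- numbers of fixed points and of points mapped to their negatives -/
def n1 (x : Wg) : ℕ := (Finset.univ.filter fun i => x.1 i = i).card
def n2 (x : Wg) : ℕ := (Finset.univ.filter fun i => x.1 i = bar i).card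

theorem card_conj (g x : Wg) (f : Fin 12 → Fin 12) (hf : ∀ i, g.1 (f i) = f (g.1 i)) :
    (Finset.univ.filter fun i => (g * x * g⁻¹).1 i = f i).card = (Finset.univ.filter fun i => x.1 i = f i).card := by
  refine (Finset.card_equiv g.1 fun i => ?_).symm
  rw [Finset.mem_filter, Finset.mem_filter, ← hf, ← g.1.injective.eq_iff]
  simp

theorem n1_conj (g x : Wg) : n1 (g * x * g⁻¹) = n1 x := card_conj g x id fun _ => rfl
theorem n2_conj (g x : Wg) : n2 (g * x * g⁻¹) = n2 x := card_conj g x bar (W_bar g)

/-- linear maps -/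
def lin (a b c d e f : Fin 64) (x : Fin 64) : Fin 64 :=
  (if x.1 % 2 = 1 then a else 0) ^^^ (if x.1 / 2 % 2 = 1 then b else 0) ^^^ (if x.1 / 4 % 2 = 1 then c else 0) ^^^
  (if x.1 / 8 % 2 = 1 then d else 0) ^^^ (if x.1 / 16 % 2 = 1 then e else 0) ^^^ (if x.1 / 32 = 1 then f else 0)

theorem eq_lin {f : Fin 64 → Fin 64} (h : ∀ c d, f (c ^^^ d) = f c ^^^ f d) (x : Fin 64) :
    f x = lin (f 1) (f 2) (f 4) (f 8) (f 16) (f 32) x := by
  have h0 : f 0 = 0 := by rw [← xr_self 0, h, xr_self, xr_self]
  have h1 : ∀ x, x = lin 1 2 4 8 16 32 x := by decide +kernel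
  conv_lhs => rw [h1 x]
  simp only [lin, h, apply_ite f, h0]

/-- the swap of `p₁` and `m₁` -/
def fl (c : Fin 64) : Fin 64 := if c.1 % 4 < 2 then c else c ^^^ 1

/-- the action of the normalizer of `A` in `W` on `A` -/
theorem norm_A {x : Wg} {f : Fin 64 → Fin 64} (h : ∀ c, x * av c * x⁻¹ = av (f c)) : ∃ j, ∀ c, f c = L j c := by
  have hf : ∀ c d, f (c ^^^ d) = f c ^^^ f d := fun c d => av_inj (by rw [← av_mul, ← h, ← h, ← h, ← av_mul]; group)
  have h1 : ∀ c, n1 (av (f c)) = n1 (av c) ∧ n2 (av (f c)) = n2 (av c) := fun c => by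
    rw [← h, n1_conj, n2_conj]; exact ⟨rfl, rfl⟩
  have k1 : ∀ c d : Fin 64, n1 (av d) = n1 (av c) ∧ n2 (av d) = n2 (av c) →
      (c ∈ [2, 8, 32] → d ∈ [2, 3, 8, 12, 32, 48]) ∧ (c ∈ [1, 4, 16] → d ∈ [1, 4, 16]) ∧
      (c ∈ [3, 12, 48] → d ∈ [2, 3, 8, 12, 32, 48]) ∧ (c = 21 → d = 21) := by decide +kernel
  have k2 : ∀ a ∈ ([1, 4, 16] : List (Fin 64)), ∀ b ∈ ([2, 3, 8, 12, 32, 48] : List (Fin 64)),
      a ^^^ b ∈ [2, 3, 8, 12, 32, 48] → ∀ c ∈ ([1, 4, 16] : List (Fin 64)),
      ∀ d ∈ ([2, 3, 8, 12, 32, 48] : List (Fin 64)), c ^^^ d ∈ [2, 3, 8, 12, 32, 48] →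
      ∀ e ∈ ([1, 4, 16] : List (Fin 64)), ∀ f ∈ ([2, 3, 8, 12, 32, 48] : List (Fin 64)),
      e ^^^ f ∈ [2, 3, 8, 12, 32, 48] → a ^^^ c ^^^ e = 21 →
      ∃ j, (∀ x, lin a b c d e f x = L j x) ∨ ∀ x, lin a b c d e f x = L j (fl x) := by decide +kernel
  obtain ⟨j, e | e⟩ := k2 _ ((k1 1 _ (h1 _)).2.1 (by decide)) _ ((k1 2 _ (h1 _)).1 (by decide))
    (hf 1 2 ▸ (k1 _ _ (h1 _)).2.2.1 (by decide)) _ ((k1 4 _ (h1 _)).2.1 (by decide)) _
    ((k1 8 _ (h1 _)).1 (by decide)) (hf 4 8 ▸ (k1 _ _ (h1 _)).2.2.1 (by decide)) _
    ((k1 16 _ (h1 _)).2.1 (by decide)) _ ((k1 32 _ (h1 _)).1 (by decide))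
    (hf 16 32 ▸ (k1 _ _ (h1 _)).2.2.1 (by decide)) (by
      rw [← hf, ← hf]; exact (k1 _ _ (h1 _)).2.2.2 (by decide))
  · exact ⟨j, fun c => (eq_lin hf c).trans (e c)⟩
  · exfalso
    have k3 : ∀ c, swap 0 1 * (av c).1 * swap 0 1 = (av (fl c)).1 := by decide +kernel
    obtain ⟨c, hc⟩ := cent_A (x := swap 0 1 * (nn j).1⁻¹ * x.1) fun c => by
      have e1 := congrArg Subtype.val (h c)
      rw [eq_lin hf, e, ← nn_av] at e1
      simp only [coe_mul, coe_inv, ← k3] at e1
      calc _ = swap 0 1 * (nn j).1⁻¹ * (x.1 * (av c).1 * x.1⁻¹) * x.1 := by group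
        _ = swap 0 1 * swap 0 1 * (av c).1 * (swap 0 1 * (nn j).1⁻¹ * x.1) := by rw [e1]; group
        _ = _ := by rw [swap_mul_self, one_mul]
    have := congrArg Perm.sign hc
    simp [(mem_W.1 x.2).1, (mem_W.1 (nn j).2).1, (mem_W.1 (av c).2).1] at this

theorem card_W : Nat.card Wg = 23040 := by
  have h2 : orderOf a0 = 2 := orderOf_eq_prime (by decide +kernel) (by decide +kernel)
  obtain ⟨n, hn⟩ := Perm.cycleType_prime_order (σ := a0) (h2 ▸ Nat.prime_two)
  have h3 := Perm.sum_cycleType a0
  rw [show a0.support.card = 12 by decide +kernel, hn, h2] at h3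
  obtain rfl : n = 5 := by simp at h3; omega
  have h4 := Perm.nat_card_centralizer a0
  rw [hn, h2] at h4
  have h5 : Nat.card (centralizer {a0}) = 46080 := h4.trans (by simp; decide)
  have h6 : (alternatingGroup (Fin 12)).relIndex (centralizer {a0}) = 2 := by
    have h7 := relIndex_dvd_index_of_normal (alternatingGroup (Fin 12)) (centralizer {a0})
    rw [alternatingGroup.index_eq_two] at h7
    refine ((Nat.dvd_prime Nat.prime_two).1 h7).resolve_left fun h => ?_
    have : swap 0 1 ∈ centralizer {a0} := mem_centralizer_singleton_iff.2 (by decide +kernel)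
    have := relIndex_eq_one.1 h this
    simp [Perm.mem_alternatingGroup] at this
  have h7 := ((alternatingGroup (Fin 12)).subgroupOf (centralizer {a0})).card_mul_index
  rw [← relIndex, h6, h5, ← inf_subgroupOf_right, Nat.card_congr (subgroupOfEquivOfLe inf_le_right).toEquiv] at h7
  clear h4
  exact Nat.eq_of_mul_eq_mul_right two_pos h7

/-- the points `≥ 2 k` are fixed -/
theorem gen_W (k : ℕ) (H : Subgroup Wg) (hH : ∀ p q : Fin 12, p.1 < 2 * k → q.1 < 2 * k → rr p q ∈ H) (x : Wg)
    (hx : ∀ i : Fin 12, 2 * k ≤ i.1 → x.1 i = i) : x ∈ H := by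
  induction k generalizing x with
  | zero => exact (show x = 1 from Subtype.ext (Equiv.ext fun i => hx i (by omega))) ▸ H.one_mem
  | succ k ih =>
    have ih' := ih fun p q hp hq => hH p q (by omega) (by omega)
    by_cases h6 : 6 ≤ k
    · exact ih' x fun i hi => by omega
    let a : Fin 12 := ⟨2 * k, by omega⟩
    have key : ∀ y : Wg, y.1 a = a → (∀ i : Fin 12, 2 * (k + 1) ≤ i.1 → y.1 i = i) → y ∈ H := fun y h1 h2 =>
      ih' y fun i hi => by
        have k1 : ∀ a i : Fin 12, a.1 % 2 = 0 → i.1 = a.1 + 1 → i = bar a := by decide +kernel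
        by_cases e : i = a
        · rwa [e]
        by_cases e' : i.1 = 2 * k + 1
        · rw [k1 a i (by simp [a]) e', W_bar, h1]
        · have : i.1 ≠ 2 * k := fun h => e (Fin.ext h)
          exact h2 i (by omega)
    have hb : (x.1 a).1 < 2 * (k + 1) := by
      by_contra hc
      have := x.1.injective (hx _ (not_lt.1 hc))
      rw [this] at hc
      simp [a] at hc
    have k2 : ∀ a b i : Fin 12, a.1 % 2 = 0 → b.1 < a.1 + 2 → (b ≠ bar a → (rr a b).1 b = a) ∧
        (a.1 + 2 ≤ i.1 → (rr a b).1 i = i) := by decide +kernel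
    have ha : a.1 % 2 = 0 := by simp [a]
    by_cases e : x.1 a = bar a
    · rcases Nat.eq_zero_or_pos k with rfl | hk
      · have : x.1 = swap 0 1 := Equiv.ext fun i => by
          have e' : x.1 0 = 1 := e
          have e2 : x.1 1 = 0 := by rw [show (1 : Fin 12) = bar 0 by decide, W_bar, e']; decide
          by_cases h0 : i = 0
          · simp [h0, e']
          by_cases h1 : i = 1
          · simp [h1, e2]
          rw [swap_apply_of_ne_of_ne h0 h1]
          exact hx i (by rw [Fin.ext_iff] at h0 h1; simp at h0 h1; omega)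
        have h := (mem_W.1 x.2).1
        simp [this] at h
      have k3 : ∀ a : Fin 12, a.1 % 2 = 0 → 0 < a.1 → (rr a 0 * rr a 1).1 (bar a) = a := by decide +kernel
      have := key (rr a 0 * rr a 1 * x) (by rw [coe_mul, Perm.mul_apply, e, k3 a ha (by simp [a]; omega)])
        fun i hi => by
          rw [coe_mul, coe_mul, Perm.mul_apply, Perm.mul_apply, hx i hi, (k2 a 1 i ha (by simp [a])).2 hi,
            (k2 a 0 i ha (by simp)).2 hi]
      exact (H.mul_mem_cancel_left (H.mul_mem (hH a 0 (by simp [a]) (by simp)) (hH a 1 (by simp [a])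
        (by simp; omega)))).1 this
    · have := key (rr a (x.1 a) * x) (by rw [coe_mul, Perm.mul_apply, (k2 a _ a ha hb).1 e])
        fun i hi => by rw [coe_mul, Perm.mul_apply, hx i hi, (k2 a _ i ha hb).2 hi]
      exact (H.mul_mem_cancel_left (hH a _ (by simp [a]) hb)).1 this

end Cfsg.Lib.D6
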