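import Cfsg.Agent.Lib.D6.W

/-!
# The Sylow 2-subgroup of the Weyl group of type `D₆`
-/

set_option autoImplicit false
set_option synthInstance.maxSize 8000
set_option maxRecDepth 100000

namespace Cfsg.Lib.D6
open Equiv Subgroup Cfsg.Lib.PC

theorem av_inv (c : Fin 64) : (av c)⁻¹ = av c := inv_eq_of_mul_eq_one_right (av_sq c)

/-- the group `A` -/
def Aw : Subgroup Wg where
  carrier := Set.range av
  one_mem' := ⟨0, av_zero⟩
  mul_mem' := by rintro _ _ ⟨c, rfl⟩ ⟨d, rfl⟩; exact ⟨_, (av_mul c d).symm⟩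
  inv_mem' := by rintro _ ⟨c, rfl⟩; exact ⟨c, (av_inv c).symm⟩

theorem card_Aw : Nat.card Aw = 64 := (Nat.card_range_of_injective av_inj).trans (by simp)

theorem nn_mul : ∀ i j : Fin 24, i.1 < 8 → j.1 < 8 → ∃ k : Fin 24, k.1 < 8 ∧ nn i * nn j = nn k := by decide +kernel
theorem nn_inv : ∀ i : Fin 24, ∃ k : Fin 24, (i.1 < 8 → k.1 < 8) ∧ (nn i)⁻¹ = nn k := by decide +kernel
theorem nn_zero : nn 0 = 1 := by decide +kernel
theorem L_zero : ∀ c, L 0 c = c := by decide +kernel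

theorem nn_av' (j : Fin 24) (c : Fin 64) : nn j * av c = av (L j c) * nn j := by rw [← nn_av]; group

/-- a Sylow 2-subgroup -/
def Sw : Subgroup Wg where
  carrier := {x | ∃ c, ∃ j : Fin 24, j.1 < 8 ∧ x = av c * nn j}
  one_mem' := ⟨0, 0, by decide, by rw [av_zero, nn_zero, one_mul]⟩
  mul_mem' := by
    rintro _ _ ⟨c, i, hi, rfl⟩ ⟨d, j, hj, rfl⟩
    obtain ⟨k, hk, e⟩ := nn_mul i j hi hj
    exact ⟨c ^^^ L i d, k, hk, by rw [← av_mul, ← e, ← nn_av]; group⟩
  inv_mem' := by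
    rintro _ ⟨c, i, hi, rfl⟩
    obtain ⟨k, hk, e⟩ := nn_inv i
    exact ⟨L k c, k, hk hi, by rw [mul_inv_rev, e, av_inv, nn_av']⟩

theorem av_mem_Sw (c : Fin 64) : av c ∈ Sw := ⟨c, 0, by decide, by rw [nn_zero, mul_one]⟩
theorem nn_mem_Sw {j : Fin 24} (h : j.1 < 8) : nn j ∈ Sw := ⟨0, j, h, by rw [av_zero, one_mul]⟩

theorem av_nn_inj {c d : Fin 64} {i j : Fin 24} (h : av c * nn i = av d * nn j) : c = d ∧ i = j := by
  have k0 : ∀ c, ∀ i j : Fin 24, avf c ((nn i).1 0) = (nn j).1 0 → avf c ((nn i).1 4) = (nn j).1 4 →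
      avf c ((nn i).1 8) = (nn j).1 8 → avf c ((nn i).1 2) = (nn j).1 2 → avf c ((nn i).1 6) = (nn j).1 6 →
      c = 0 ∧ i = j := by decide +kernel
  have k : ∀ c, ∀ i j : Fin 24, av c * nn i = nn j → c = 0 ∧ i = j := fun c i j e => by
    have : ∀ p, avf c ((nn i).1 p) = (nn j).1 p := fun p => by rw [← e, ← av_apply]; rfl
    exact k0 c i j (this _) (this _) (this _) (this _) (this _)
  have k2 : ∀ c d : Fin 64, d ^^^ c = 0 → c = d := by decide +kernel
  have := k (d ^^^ c) i j (by rw [← av_mul, mul_assoc, h, ← mul_assoc, av_sq, one_mul])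
  exact ⟨k2 _ _ this.1, this.2⟩

theorem card_Sw : Nat.card Sw = 2 ^ 9 := by
  let f : Fin 64 × Fin 8 → Wg := fun x => av x.1 * nn ⟨x.2.1, by omega⟩
  have : (Sw : Set Wg) = Set.range f := Set.ext fun x =>
    ⟨fun ⟨c, j, hj, e⟩ => ⟨(c, ⟨j.1, hj⟩), e.symm⟩, fun ⟨y, e⟩ => ⟨y.1, _, y.2.2, e.symm⟩⟩
  have h : Function.Injective f := fun x y e => Prod.ext (av_nn_inj e).1
    (Fin.ext (congrArg Fin.val (av_nn_inj e).2 :))
  have h2 := Nat.card_range_of_injective h
  rw [← this] at h2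
  exact h2.trans (by simp)

theorem syl_Sw : IsSylowIn 2 Sw ⊤ := by
  refine IsSylowIn.of_not_dvd_relIndex le_top (IsPGroup.of_card card_Sw) ?_
  have := Sw.card_mul_index
  rw [card_Sw, card_W] at this
  rw [relIndex_top_right, show Sw.index = 45 by omega]
  decide

/-- every involution is conjugate into `A` -/
theorem inv_A {x : Wg} (hx : x * x = 1) : ∃ g c, x = g * av c * g⁻¹ := by
  obtain ⟨g, -, hg⟩ := syl_Sw.exists_conj_le (U := zpowers x) (IsPGroup.of_card (n := if x = 1 then 0 else 1) (by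
    rw [Nat.card_zpowers]
    split_ifs with h
    · simp [h]
    · rw [pow_one]; exact orderOf_eq_prime (by rw [sq, hx]) h)) le_top
  obtain ⟨c, j, hj, e⟩ := hg ⟨x, mem_zpowers x, rfl⟩
  have k : ∀ c, ∀ j : Fin 24, j.1 < 8 → av c * nn j * (av c * nn j) = 1 →
      ∃ p ∈ ([(0, 0), (0, 4), (0, 6), (0, 8), (0, 10), (4, 8), (4, 10)] : List (Fin 12 × Fin 12)),
      ∃ d, rr p.1 p.2 * (av c * nn j) * rr p.1 p.2 = av d := by decide +kernel
  have e' : g * x * g⁻¹ = av c * nn j := e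
  obtain ⟨p, -, d, h⟩ := k c j hj (by rw [← e', show g * x * g⁻¹ * (g * x * g⁻¹) = g * (x * x) * g⁻¹ by group, hx]; group)
  have k2 : ∀ p q, rr p q * rr p q = 1 := by decide +kernel
  refine ⟨g⁻¹ * rr p.1 p.2, d, ?_⟩
  rw [← h, ← e', mul_inv_rev, inv_eq_of_mul_eq_one_right (k2 _ _)]
  simp only [← mul_assoc, mul_assoc _ (rr _ _) (rr _ _), k2]
  group

/-- `A` is the only elementary abelian subgroup of order 64 of the Sylow subgroup -/
theorem uniq_A {B : Subgroup Wg} (hB : B ≤ Sw) (hc : ∀ x ∈ B, ∀ y ∈ B, x * y = y * x) (h : Nat.card B = 64) :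
    B = Aw := by
  classical
  choose! fc fj hj e using fun x (hx : x ∈ B) => hB hx
  let J : Finset (Fin 24) := Finset.univ.filter fun j => ∃ b ∈ B, fj b = j
  choose! s hs es using fun j (hj : j ∈ J) => (Finset.mem_filter.1 hj).2
  have hJ : ∀ b ∈ B, fj b ∈ J := fun b hb => Finset.mem_filter.2 ⟨Finset.mem_univ _, b, hb, rfl⟩
  have key : ∀ b ∈ B, b * (s (fj b))⁻¹ = av (fc b ^^^ fc (s (fj b))) := fun b hb => by
    conv_lhs => rw [e _ (hs _ (hJ b hb)), es _ (hJ b hb)]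
    conv_lhs => enter [1]; rw [e _ hb]
    rw [← av_mul, mul_inv_rev, av_inv]; group
  have h1 : Nat.card B ≤ (J ×ˢ Finset.univ.filter fun c => ∀ j ∈ J, L j c = c).card := by
    rw [← Fintype.card_coe, ← Nat.card_eq_fintype_card]
    refine Nat.card_le_card_of_injective (fun b => ⟨(fj b.1, fc b.1 ^^^ fc (s (fj b.1))), Finset.mem_product.2
      ⟨hJ _ b.2, Finset.mem_filter.2 ⟨Finset.mem_univ _, fun j hj => av_inj ?_⟩⟩⟩) fun b b' hb => ?_
    · have h2 := hc _ (hs j hj) _ (B.mul_mem b.2 (B.inv_mem (hs _ (hJ _ b.2))))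
      rw [key _ b.2, e _ (hs j hj), es j hj, mul_assoc, nn_av', ← mul_assoc, ← mul_assoc, mul_left_inj,
        av_comm, mul_left_inj] at h2
      exact h2
    · simp only [Subtype.mk.injEq, Prod.mk.injEq] at hb
      have := key _ b.2
      rw [hb.2, ← key _ b'.2, hb.1, mul_left_inj] at this
      exact Subtype.ext this
  rw [Finset.card_product, h] at h1
  refine eq_of_le_of_card_ge (fun b hb => ⟨fc b, ?_⟩) (by rw [h, card_Aw])
  have h8 : ∀ j ∈ J, j.1 < 8 := fun j hj' => es j hj' ▸ hj _ (hs j hj')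
  have hJ8 : J ⊆ Finset.univ.filter fun j : Fin 24 => j.1 < 8 := fun j hj' =>
    Finset.mem_filter.2 ⟨Finset.mem_univ _, h8 j hj'⟩
  have hc8 : (Finset.univ.filter fun j : Fin 24 => j.1 < 8).card = 8 := by decide +kernel
  have k : ∀ i j : Fin 24, i.1 < 8 → j.1 < 8 → i ≠ 0 → j ≠ 0 →
      (Finset.univ.filter fun c => L i c = c ∧ L j c = c).card ≤ if i = j then 16 else 8 := by decide +kernel
  have k' : (Finset.univ.filter fun c => L 1 c = c ∧ L 2 c = c ∧ L 4 c = c).card ≤ 4 := by decide +kernel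
  have : fj b = 0 := by
    by_contra h0
    have h2 := (Finset.card_le_card hJ8).trans hc8.le
    have h3 : ∀ j ∈ J, j ≠ 0 → (Finset.univ.filter fun c => ∀ j ∈ J, L j c = c).card ≤
        if fj b = j then 16 else 8 := fun j hj' h0' =>
      (Finset.card_le_card fun c hc => by
        simp only [Finset.mem_filter, Finset.mem_univ, true_and] at hc ⊢
        exact ⟨hc _ (hJ b hb), hc _ hj'⟩).trans (k _ j (hj _ hb) (h8 j hj') h0 h0')
    have h4 := h3 _ (hJ b hb) h0
    rw [if_pos rfl] at h4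
    obtain ⟨j, hj1, hj2⟩ : ∃ j ∈ J, j ∉ ({0, fj b} : Finset (Fin 24)) := by
      by_contra! hc
      have := (Finset.card_le_card (show J ⊆ _ from hc)).trans Finset.card_le_two
      nlinarith
    simp only [Finset.mem_insert, Finset.mem_singleton, not_or] at hj2
    have h5 := h3 j hj1 hj2.1
    rw [if_neg (Ne.symm hj2.2)] at h5
    have h6 := Finset.eq_of_subset_of_card_le hJ8 (by rw [hc8]; nlinarith)
    have h7 : (Finset.univ.filter fun c => ∀ j ∈ J, L j c = c).card ≤ 4 := (Finset.card_le_card fun c hc => by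
      simp only [Finset.mem_filter, Finset.mem_univ, true_and, h6] at hc ⊢
      exact ⟨hc _ (by decide), hc _ (by decide), hc _ (by decide)⟩).trans k'
    nlinarith
  conv_rhs => rw [e _ hb, this, nn_zero, mul_one]

/-- `A` normalizes no non-trivial subgroup of odd order -/
theorem odd_A {x : Wg} (ho : Odd (orderOf x)) (h : ∀ c, av c * x * av c = x ∨ av c * x * av c = x⁻¹) : x = 1 := by
  have h0 : ∀ c d, av c * x * av c = x ∨ av d * x * av d = x ∨ av (c ^^^ d) * x * av (c ^^^ d) = x := fun c d => by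
    refine (h c).imp_right fun h1 => (h d).imp_right fun h2 => ?_
    have h3 : av c * x⁻¹ * av c = x := by rw [← h1]; simp only [← mul_assoc, mul_assoc _ (av c) (av c), av_sq]; group
    conv_lhs => enter [2]; rw [xr_comm]
    rw [← av_mul, ← av_mul]
    calc _ = av c * (av d * x * av d) * av c := by group
      _ = x := by rw [h2, h3]
  have h1 : ∀ c i, av c * x * av c = x → avf c i ≠ i → avf c (x.1 i) ≠ x.1 i := fun c i e hi e' => hi (by
    have := congrArg (fun y : Wg => y.1 (avf c i)) e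
    simp only [coe_mul, Perm.mul_apply, ← av_apply] at this e' ⊢
    rw [← Perm.mul_apply (av c).1 (av c).1, ← coe_mul, av_sq, coe_one, Perm.one_apply, e'] at this
    exact x.1.injective this.symm)
  have k1 : ∀ i : Fin 12, ∃ c ∈ ([1, 4, 16] : List (Fin 64)), ∃ d ∈ ([2, 8, 32] : List (Fin 64)),
      ∀ e ∈ [c, d, c ^^^ d], avf e i ≠ i ∧ ∀ j, avf e j ≠ j → j.1 / 4 = i.1 / 4 := by
    decide +kernel
  have h2 : ∀ i, (x.1 i).1 / 4 = i.1 / 4 := fun i => by
    obtain ⟨c, -, d, -, hk⟩ := k1 i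
    rcases h0 c d with e | e | e <;> exact (hk _ (by simp)).2 _ (h1 _ i e (hk _ (by simp)).1)
  have k2 : ∀ i j a b : Fin 12, i.1 % 4 = 0 → j.1 = i.1 + 2 → a.1 / 4 = i.1 / 4 → b.1 / 4 = i.1 / 4 → b ≠ a →
      b ≠ bar a → ∀ k : Fin 12, k.1 / 4 = i.1 / 4 →
      (fun k => if k = i then a else if k = bar i then bar a else if k = j then b else bar b)^[4] k = k := by
    decide +kernel
  have k3 : ∀ k : Fin 12, ∃ i j : Fin 12, i.1 % 4 = 0 ∧ j.1 = i.1 + 2 ∧ k.1 / 4 = i.1 / 4 ∧ j.1 / 4 = i.1 / 4 ∧ j ≠ i ∧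
      j ≠ bar i ∧ ∀ l : Fin 12, l.1 / 4 = i.1 / 4 → l ≠ i → l ≠ bar i → l ≠ j → l = bar j := by decide +kernel
  have h4 : x ^ 4 = 1 := Subtype.ext (Equiv.ext fun k => by
    obtain ⟨i, j, a1, a2, a3, a4, a5, a6, a7⟩ := k3 k
    have h5 : ∀ l : Fin 12, l.1 / 4 = i.1 / 4 → (if l = i then x.1 i else if l = bar i then bar (x.1 i) else
        if l = j then x.1 j else bar (x.1 j)) = x.1 l := fun l hl => by
      split_ifs with b1 b2 b3
      · rw [b1]
      · rw [b2, W_bar]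
      · rw [b3]
      · rw [a7 l hl b1 b2 b3, W_bar]
    have := k2 i j _ _ a1 a2 (h2 i) ((h2 j).trans a4) (x.1.injective.ne a5)
      (by rw [← W_bar]; exact x.1.injective.ne a6) k a3
    simp only [Function.iterate_succ, Function.iterate_zero, Function.comp, id] at this
    rw [h5 k a3, h5 _ ((h2 _).trans a3), h5 _ ((h2 _).trans ((h2 _).trans a3)),
      h5 _ ((h2 _).trans ((h2 _).trans ((h2 _).trans a3)))] at this
    exact this)
  have := Nat.Coprime.eq_one_of_dvd (Nat.Coprime.pow_right 2 ((Nat.coprime_two_right).2 ho))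
    (orderOf_dvd_of_pow_eq_one h4)
  exact orderOf_eq_one_iff.1 this

end Cfsg.Lib.D6
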